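import Cfsg.Agent.H858.RG.Mix
import Cfsg.Agent.H50.RG.LStmts
import Cfsg.Agent.H548.BS.Transf
import Cfsg.Agent.H436.Simple

/-!
# S5714: transfer of the results of route LR to the named groups (task RG-L22)

`large_fix` : `LargeFix BigCl` from `LSL`, `LSp`, `LSU`, `LOm`.
-/

set_option autoImplicit false

namespace Cfsg.Agent.H858.RG

open Module Cfsg Cfsg.Agent.H50.RG Cfsg.Agent.H262.Rg.Asm Cfsg.Agent.H847.Bs Cfsg.Agent.OrdDiv Cfsg.Agent.H436
open Cfsg.Agent.H278.El.AltNum (dimOf)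
open Cfsg.Agent.H851.Dg (BigCl)
open Cfsg.Agent.H548.BS (finite_equiv range_toLin' hermFrm isHerm spFrm isSp spHom spHom_injective range_spHom)
open QuadraticMap Cfsg.Agent.LieClassical.OrthCore Cfsg.Agent.LieClassical.OrthTrans
  Cfsg.Agent.LieClassical.OrthFinite Cfsg.Agent.LieClassical.OrthForms

section cov

variable {F : Type} [Field F]

theorem cov_psl {n : ℕ} : Cov (slV F (Fin n → F)) (Matrix.ProjectiveSpecialLinearGroup (Fin n) F) :=
  (cov_of_range _ Matrix.SpecialLinearGroup.toLin'_injective (range_toLin' n)).trans (cov_mk _)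

theorem cov_psu [Fintype F] {n q : ℕ} (hF : Fintype.card F = q ^ 2) :
    Cov ↥((hermFrm n hF).Iso ⊓ slV F (Fin n → F)) (Cfsg.PSU n F q) := by
  have h1 : Cov ↥((hermFrm n hF).Iso ⊓ slV F (Fin n → F)) (Cfsg.SU n F q) := by
    refine cov_of_range (Matrix.SpecialLinearGroup.toLin'.comp (Cfsg.SU n F q).subtype)
      (Matrix.SpecialLinearGroup.toLin'_injective.comp (Subgroup.subtype_injective _)) ?_
    ext g
    constructor
    · rintro ⟨A, rfl⟩
      refine ⟨⟨fun x y => A.2 x y, fun _ => rfl⟩, ?_⟩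
      rw [← range_toLin' n]
      exact ⟨A.1, rfl⟩
    · rintro ⟨hg1, hg2⟩
      have hg2' : g ∈ slV F (Fin n → F) := hg2
      rw [← range_toLin' n] at hg2'
      obtain ⟨A, rfl⟩ := hg2'
      exact ⟨⟨A, fun x y => hg1.1 x y⟩, rfl⟩
  exact h1.trans (cov_mk (Subgroup.center (Cfsg.SU n F q)))

theorem cov_psp {m : ℕ} : Cov (spFrm (F := F) m).Iso (Cfsg.PSp m F) :=
  (cov_of_range _ (spHom_injective m) (range_spHom m)).trans
    (cov_mk (Subgroup.center (Matrix.symplecticGroup (Fin m) F)))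

theorem cov_pomega {ι : Type} [Fintype ι] [DecidableEq ι] {Q : QuadraticForm F (ι → F)} (hG : Good Q) :
    Cov (E Q) (Cfsg.POmega F ⇑Q) :=
  (cov_of_equiv ((omegaEquiv Q).trans (MulEquiv.subgroupCongr hG.commutator_eq_E)).symm).trans
    (cov_mk (Subgroup.center (Cfsg.Omega F ⇑Q)))

end cov

section lin

variable {F V : Type} [Field F] [Finite F] [AddCommGroup V] [Module F V] [Module.Finite F V]

theorem card_le_pow (G : Subgroup (V ≃ₗ[F] V)) : Nat.card G ≤ Nat.card F ^ (finrank F V * finrank F V) := by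
  have : Finite V := Module.finite_of_finite F
  have hfin : Finite (V →ₗ[F] V) := Module.finite_of_finite F
  have h1 : Nat.card (V →ₗ[F] V) = Nat.card F ^ (finrank F V * finrank F V) := by
    rw [Module.natCard_eq_pow_finrank (K := F), Module.finrank_linearMap]
  rw [← h1]
  exact Nat.card_le_card_of_injective (fun g : G => ((g : V ≃ₗ[F] V) : V →ₗ[F] V)) fun a b h =>
    Subtype.ext (LinearEquiv.toLinearMap_injective h)

theorem fixB_of_cov (G : Subgroup (V ≃ₗ[F] V)) {T : Type} [Group T] [Fintype T] [IsSimpleGroup T] (hc : Cov G T)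
    {A : ℕ} {ε : ℝ} (hb : Bad (((finrank F V : ℝ) ^ 2 * Real.log (Nat.card F)) ^ (A + 1)) ε G)
    (hn : 2 ^ (A + 2) ≤ finrank F V) : FixB T (1 / (lg T : ℝ) ^ A) ε := by
  have : Finite V := Module.finite_of_finite F
  have : Nontrivial T := IsSimpleGroup.toNontrivial
  have h1 := two_div_le (T := T) ((hc.card_le).trans (card_le_pow G)) Finite.one_lt_card hn
  exact fixB_of_bad h1.1 (bad_of_cov hc hb) h1.2

/-- along an isomorphism -/
theorem fixB_of_cov' (G : Subgroup (V ≃ₗ[F] V)) {T T' : Type} [Group T] [Fintype T] [IsSimpleGroup T] [Group T']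
    (hc : Cov G T') (e : T ≃* T')
    {A : ℕ} {ε : ℝ} (hb : Bad (((finrank F V : ℝ) ^ 2 * Real.log (Nat.card F)) ^ (A + 1)) ε G)
    (hn : 2 ^ (A + 2) ≤ finrank F V) : FixB T (1 / (lg T : ℝ) ^ A) ε :=
  fixB_of_cov G (hc.trans (cov_of_equiv e.symm)) hb hn

end lin

theorem largeFix_or {P Q : Grp → Prop} (hP : LargeFix P) (hQ : LargeFix Q) : LargeFix fun g => P g ∨ Q g := by
  intro A ε hε
  obtain ⟨N, hN⟩ := hP A ε hε
  obtain ⟨N', hN'⟩ := hQ A ε hε
  refine ⟨max N N', fun g T _ _ _ hT hg h => ?_⟩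
  rcases hg with hg | hg
  · exact hN g T hT hg ((le_max_left _ _).trans h)
  · exact hN' g T hT hg ((le_max_right _ _).trans h)

theorem largeFix_mono {P Q : Grp → Prop} (hQ : LargeFix Q) (h : ∀ g, P g → Q g) : LargeFix P := by
  intro A ε hε
  obtain ⟨N, hN⟩ := hQ A ε hε
  exact ⟨N, fun g T _ _ _ hT hg => hN g T hT (h g hg)⟩

theorem large_psl (h : LSL) : LargeFix fun g => ∃ n q, g = .psl n q := by
  intro A ε hε
  obtain ⟨N, hN⟩ := h ε (A + 1) hε
  refine ⟨N + 2 ^ (A + 2), ?_⟩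
  rintro g T _ _ _ hT ⟨n, q, rfl⟩ hn
  obtain ⟨F, _, _, hF, ⟨e⟩⟩ := hT.real
  have hd : finrank F (Fin n → F) = n := finrank_fin_fun F
  have hn' : N + 2 ^ (A + 2) ≤ finrank F (Fin n → F) := by rw [hd]; exact hn
  exact fixB_of_cov' _ cov_psl e (hN F (Fin n → F) ((Nat.le_add_right _ _).trans hn')) ((Nat.le_add_left _ _).trans hn')

theorem large_psp (h : LSp) : LargeFix fun g => ∃ n q, g = .psp n q := by
  intro A ε hε
  obtain ⟨N, hN⟩ := h ε (A + 1) hε
  refine ⟨N + 2 ^ (A + 2), ?_⟩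
  rintro g T _ _ _ hT ⟨m, q, rfl⟩ hn
  obtain ⟨F, _, _, hF, ⟨e⟩⟩ := hT.real
  have hn' : N + 2 ^ (A + 2) ≤ finrank F (Fin m ⊕ Fin m → F) := by
    rw [finrank_fintype_fun_eq_card, Fintype.card_sum, Fintype.card_fin, ← two_mul]
    exact hn
  exact fixB_of_cov' _ cov_psp e (hN F _ (spFrm m) (isSp m) ((Nat.le_add_right _ _).trans hn')) ((Nat.le_add_left _ _).trans hn')

theorem large_psu (h : LSU) : LargeFix fun g => ∃ n q, g = .psu n q := by
  intro A ε hε
  obtain ⟨N, hN⟩ := h ε (A + 1) hε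
  refine ⟨N + 2 ^ (A + 2), ?_⟩
  rintro g T _ _ _ hT ⟨n, q, rfl⟩ hn
  obtain ⟨F, _, _, hF, ⟨e⟩⟩ := hT.real
  have hn' : N + 2 ^ (A + 2) ≤ finrank F (Fin n → F) := by rw [finrank_fin_fun]; exact hn
  exact fixB_of_cov' _ (cov_psu hF) e (hN F (Fin n → F) q (hermFrm n hF) (isHerm n hF) ((Nat.le_add_right _ _).trans hn')) ((Nat.le_add_left _ _).trans hn')

theorem large_orth (h : LOm) : LargeFix fun g => (∃ m q, g = .oodd m q) ∨ (∃ m q, g = .oplus m q) ∨
    (∃ m q, g = .ominus m q) := by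
  intro A ε hε
  obtain ⟨N, hN⟩ := h ε (A + 1) hε
  refine ⟨N + 2 ^ (A + 2), ?_⟩
  rintro g T _ _ _ hT (⟨m, q, rfl⟩ | ⟨m, q, rfl⟩ | ⟨m, q, rfl⟩) hn
  · obtain ⟨F, _, _, hF, ⟨e⟩⟩ := hT.real
    have ho : Odd q := hT.cond.2.1
    have hm : 3 ≤ m := hT.cond.1
    have h2 : (2 : F) ≠ 0 := by
      intro h2
      have h3' : CharP F 2 := by
        refine (CharP.charP_iff_prime_eq_zero Nat.prime_two).2 ?_
        exact_mod_cast h2
      have h3 : ringChar F = 2 := ringChar.eq_iff.2 h3'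
      have h4 := FiniteField.even_card_iff_char_two.1 h3
      rw [hF] at h4
      have := Nat.odd_iff.1 ho
      omega
    have hQ := nondeg_oddForm (F := F) (m := m) h2
    have hcard : Fintype.card (Unit ⊕ (Fin m ⊕ Fin m)) = 2 * m + 1 := by
      rw [Fintype.card_sum, Fintype.card_sum, Fintype.card_fin, Fintype.card_unit]; omega
    have hG : Good (oddForm m F) := good_of_finite hQ (by rw [finrank_fintype_fun_eq_card, hcard]; omega)
    have hn' : N + 2 ^ (A + 2) ≤ finrank F (Unit ⊕ (Fin m ⊕ Fin m) → F) := by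
      rw [finrank_fintype_fun_eq_card, hcard]; exact hn
    have hc := cov_pomega hG
    rw [coe_oddForm] at hc
    exact fixB_of_cov' _ hc e (hN F _ (oddForm m F) hQ ((Nat.le_add_right _ _).trans hn')) ((Nat.le_add_left _ _).trans hn')
  · obtain ⟨F, _, _, hF, ⟨e⟩⟩ := hT.real
    have hm : 4 ≤ m := hT.cond.1
    have hQ := nondeg_plusForm (F := F) (m := m)
    have hcard : Fintype.card (Fin m ⊕ Fin m) = 2 * m := by
      rw [Fintype.card_sum, Fintype.card_fin]; omega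
    have hG : Good (plusForm m F) := good_of_finite hQ (by rw [finrank_fintype_fun_eq_card, hcard]; omega)
    have hn' : N + 2 ^ (A + 2) ≤ finrank F (Fin m ⊕ Fin m → F) := by
      rw [finrank_fintype_fun_eq_card, hcard]; exact hn
    have hc := cov_pomega hG
    rw [coe_plusForm] at hc
    exact fixB_of_cov' _ hc e (hN F _ (plusForm m F) hQ ((Nat.le_add_right _ _).trans hn')) ((Nat.le_add_left _ _).trans hn')
  · obtain ⟨F, _, _, a, b, hF, hab, ⟨e⟩⟩ := hT.real
    have hm : 4 ≤ m := hT.cond.1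
    have hQ := nondeg_minusForm (F := F) (m := m - 1) a b hab
    have hcard : Fintype.card ((Fin (m - 1) ⊕ Fin (m - 1)) ⊕ Fin 2) = 2 * m := by
      rw [Fintype.card_sum, Fintype.card_sum, Fintype.card_fin, Fintype.card_fin]; omega
    have hG : Good (minusForm (m - 1) F a b) :=
      good_of_finite hQ (by rw [finrank_fintype_fun_eq_card, hcard]; omega)
    have hn' : N + 2 ^ (A + 2) ≤ finrank F ((Fin (m - 1) ⊕ Fin (m - 1)) ⊕ Fin 2 → F) := by
      rw [finrank_fintype_fun_eq_card, hcard]; exact hn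
    have hc := cov_pomega hG
    rw [coe_minusForm] at hc
    exact fixB_of_cov' _ hc e (hN F _ (minusForm (m - 1) F a b) hQ ((Nat.le_add_right _ _).trans hn')) ((Nat.le_add_left _ _).trans hn')

/-- **RG-L22** -/
theorem large_fix (h1 : Cfsg.Agent.H50.RG.LSL) (h2 : Cfsg.Agent.H50.RG.LSp) (h3 : Cfsg.Agent.H50.RG.LSU)
    (h4 : Cfsg.Agent.H50.RG.LOm) : Cfsg.Agent.H262.Rg.Asm.LargeFix Cfsg.Agent.H851.Dg.BigCl := by
  refine largeFix_mono (largeFix_or (largeFix_or (large_psl h1) (large_psp h2))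
    (largeFix_or (large_psu h3) (large_orth h4))) fun g hg => ?_
  cases g with
  | psl n q => exact Or.inl (Or.inl ⟨n, q, rfl⟩)
  | psp n q => exact Or.inl (Or.inr ⟨n, q, rfl⟩)
  | psu n q => exact Or.inr (Or.inl ⟨n, q, rfl⟩)
  | oodd n q => exact Or.inr (Or.inr (Or.inl ⟨n, q, rfl⟩))
  | oplus n q => exact Or.inr (Or.inr (Or.inr (Or.inl ⟨n, q, rfl⟩)))
  | ominus n q => exact Or.inr (Or.inr (Or.inr (Or.inr ⟨n, q, rfl⟩)))
  | _ => exact hg.elim

end Cfsg.Agent.H858.RG
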